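import Cfsg.Agent.CharInd.Frobenius
import Cfsg.Agent.CharInd.Clifford
import Cfsg.Agent.FGSev.TISolvable

/-!
# Normal complements of trivial-intersection Hall subgroups
-/

set_option autoImplicit false
set_option linter.style.haveILetI false
set_option linter.unusedSectionVars false

noncomputable section

open scoped ComplexConjugate BigOperators
open Cfsg.Agent Cfsg.Agent.CharInd

namespace Cfsg.Agent.OddChar43

universe u

open Classical in
/-- A TI Hall subgroup with a normal complement in its normaliser has one in the group. -/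
theorem exists_normal_complement_of_ti_aux {G : Type u} [Group G] [Fintype G] (H N : Subgroup G)
    (hN : Subgroup.normalizer (H : Set G) = N) (hTI : Cfsg.IsTISubset (H : Set G))
    (hHall : (Nat.card H).Coprime (H.subgroupOf N).index)
    (K : Subgroup N) [hKn : K.Normal] (hK : K.IsComplement' (H.subgroupOf N)) :
    ∃ M : Subgroup G, M.Normal ∧ M.IsComplement' H := by
  have hHN : H ≤ N := hN ▸ Subgroup.le_normalizer
  obtain ⟨H₀, hH₀⟩ : ∃ H₀, H₀ = H.subgroupOf N := ⟨_, rfl⟩
  rw [← hH₀] at hK hHall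
  haveI hH₀n : H₀.Normal := by subst hN; rw [hH₀]; exact Subgroup.normal_in_normalizer
  have hcH₀ : Nat.card H₀ = Nat.card H := by
    rw [hH₀]; exact Nat.card_congr (Subgroup.subgroupOfEquivOfLe hHN).toEquiv
  let π : N →* H₀ := (hK.symm.QuotientMulEquiv : N ⧸ K ≃* H₀).toMonoidHom.comp (QuotientGroup.mk' K)
  have hπsurj : Function.Surjective π := fun h => by
    obtain ⟨q, hq⟩ := (hK.symm.QuotientMulEquiv : N ⧸ K ≃* H₀).surjective h
    obtain ⟨x, rfl⟩ := QuotientGroup.mk'_surjective K q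
    exact ⟨x, hq⟩
  have hπker : ∀ x, π x = 1 ↔ x ∈ K := fun x => by
    show (hK.symm.QuotientMulEquiv : N ⧸ K ≃* H₀) (QuotientGroup.mk' K x) = 1 ↔ _
    rw [EmbeddingLike.map_eq_one_iff]; exact QuotientGroup.eq_one_iff x
  obtain ⟨m, hm⟩ : ∃ m, m = Nat.card K := ⟨_, rfl⟩
  have hmidx : m = H₀.index := by rw [hm, hK.index_eq_card]
  have hmcop : (Nat.card H).Coprime m := hmidx ▸ hHall
  have hkm : ∀ k ∈ K, k ^ m = 1 := fun k hk => by
    have h1 : ((⟨k, hk⟩ : K) ^ m : K) = 1 := hm ▸ pow_card_eq_one'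
    exact congrArg Subtype.val h1
  -- powers of elements off `K` are in `H`
  have hpow : ∀ x : N, π x ≠ 1 → ((x : G) ^ m) ∈ H ∧ (x : G) ^ m ≠ 1 := by
    intro x hx
    obtain ⟨⟨⟨k, hk⟩, ⟨h, hh⟩⟩, hxe⟩ := hK.2 x
    have hxe' : k * h = x := hxe
    have hcomm : Commute k h := Subgroup.commute_of_normal_of_disjoint K H₀ hKn hH₀n
      hK.disjoint k h hk hh
    have hxm : x ^ m = h ^ m := by rw [← hxe', hcomm.mul_pow, hkm k hk, one_mul]
    have hmem : h ^ m ∈ H₀ := H₀.pow_mem hh m
    refine ⟨?_, fun e => hx ?_⟩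
    · rw [← SubgroupClass.coe_pow, hxm]
      rw [hH₀] at hmem
      exact Subgroup.mem_subgroupOf.1 hmem
    · have e1 : h ^ m = 1 := by
        rw [← hxm]; exact Subtype.ext (by rw [SubgroupClass.coe_pow, e]; rfl)
      have hh1 : h = 1 := orderOf_eq_one_iff.1 (Nat.eq_one_of_dvd_coprimes hmcop
        (hcH₀ ▸ Subgroup.orderOf_dvd_natCard H₀ hh) (orderOf_dvd_of_pow_eq_one e1))
      rw [← hxe', hh1, mul_one]
      exact (hπker k).2 hk
  obtain ⟨T, hT⟩ : ∃ T : Set G, T = {g : G | g = 1 ∨ ∃ x : N, (x : G) = g ∧ π x ≠ 1} := ⟨_, rfl⟩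
  have hTI' : ∀ g : G, g ∉ N → ∀ t ∈ T, g * t * g⁻¹ ∈ T → t = 1 := by
    intro g hg t ht h'
    by_contra ht1
    rw [hT] at ht h'
    rcases ht with rfl | ⟨x, rfl, hx⟩
    · exact ht1 rfl
    rcases h' with e | ⟨y, hy, hy'⟩
    · exact ht1 (conj_eq_one_iff.1 e)
    · obtain ⟨h1, h2⟩ := hpow x hx
      obtain ⟨h3, -⟩ := hpow y hy'
      rw [hy, conj_pow] at h3
      exact h2 (hTI g (fun h => hg (hN ▸ h)) _ h1 h3)
  have hTmem : ∀ x : N, π x ≠ 1 → (x : G) ∈ T := fun x hx => hT ▸ Or.inr ⟨x, rfl, hx⟩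
  have hnoT : ∀ x : N, (x : G) ∉ T → π x = 1 := fun x hx => by
    by_contra h; exact hx (hTmem x h)
  have hext : ∀ φ : Cfsg.IrrCharacter H₀, ∃ χ : G → ℂ, Cfsg.IsIrrCharacter G χ ∧
      (∀ x : N, π x ≠ 1 → χ x = (φ : H₀ → ℂ) (π x)) ∧ χ 1 = (φ : H₀ → ℂ) 1 ∧
      ∀ g : G, (∀ y : G, y⁻¹ * g * y ∈ T → y⁻¹ * g * y = 1) → χ g = χ 1 := by
    intro φ
    by_cases h1 : (φ : H₀ → ℂ) = fun _ => 1
    · exact ⟨fun _ => 1, irr_one_const, fun x _ => by rw [h1], by rw [h1], fun _ _ => rfl⟩
    obtain ⟨n, hn, hn1⟩ := Cfsg.Agent.Char.irr_one_pos φ.2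
    obtain ⟨ψ, hψ⟩ : ∃ ψ : N → ℂ, ψ = fun x => (φ : H₀ → ℂ) (π x) := ⟨_, rfl⟩
    have hψi : Cfsg.IsIrrCharacter N ψ := hψ ▸ irr_comp_surjective π hπsurj φ.2
    have hψne : ψ ≠ fun _ => 1 := fun e => h1 (funext fun h => by
      obtain ⟨x, rfl⟩ := hπsurj h
      have := congrFun e x
      rwa [hψ] at this)
    let e : N → ℂ := fun _ => 1
    have he : Cfsg.IsIrrCharacter N e := irr_one_const
    let θ : N → ℂ := ψ - (n : ℂ) • e
    have hgθ : Cfsg.IsGeneralizedCharacter N θ :=
      genChar_sub (genChar_irr hψi) (by simpa using genChar_zsmul (genChar_irr he) (n : ℤ))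
    have hθc : Cfsg.IsClassFunction N θ := genChar_isClassFunction hgθ
    have hθ1 : θ 1 = 0 := by simp [θ, e, hψ, hn1]
    have hvan : ∀ x : N, (x : G) ∉ T → θ x = 0 := fun x hx => by
      simp [θ, e, hψ, hnoT x hx, hn1]
    let one' : G → ℂ := fun _ => 1
    have hone' : Cfsg.IsClassFunction G one' := fun _ _ => rfl
    have hθe : Cfsg.classInner θ e = -(n : ℂ) := by
      simp only [θ, classInner_sub_left, classInner_smul_left, classInner_irr_self he,
        classInner_irr_ne hψi he hψne]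
      ring
    have hθθ : Cfsg.classInner θ θ = 1 + (n : ℂ) * n := by
      simp only [θ, classInner_sub_left, classInner_sub_right, classInner_smul_left,
        classInner_smul_right, classInner_irr_self he, classInner_irr_self hψi,
        classInner_irr_ne hψi he hψne, classInner_irr_ne he hψi (Ne.symm hψne), map_natCast]
      ring
    let χ : G → ℂ := Cfsg.indFun N θ + (n : ℂ) • one'
    have hgχ : Cfsg.IsGeneralizedCharacter G χ :=
      genChar_add (genChar_indFun N hgθ)
        (by simpa using genChar_zsmul (genChar_irr (irr_one_const (G := G))) (n : ℤ))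
    have hI1 : Cfsg.classInner (Cfsg.indFun N θ) one' = -(n : ℂ) := by
      rw [classInner_indFun_left N θ hone']
      exact hθe
    have hnorm : Cfsg.classInner χ χ = 1 := by
      have h1I : Cfsg.classInner one' (Cfsg.indFun N θ) = -(n : ℂ) := by
        rw [← classInner_swap, hI1]; simp
      simp only [χ, classInner_add_left, classInner_add_right, classInner_smul_left,
        classInner_smul_right, classInner_indFun_ti N T hTI' hθc hvan hvan hθ1, hθθ,
        hI1, h1I, classInner_irr_self (irr_one_const (G := G)), map_natCast, one']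
      ring
    have hχ1 : χ 1 = n := by
      simp [χ, one', indFun_one_eq_zero N hθ1]
    refine ⟨χ, genChar_norm_one_pos hgχ hnorm (by rw [hχ1]; simpa using hn), fun x hx => ?_,
      by rw [hχ1, hn1], fun g hg => ?_⟩
    · have hx1 : x ≠ 1 := fun e => hx (by rw [e, map_one])
      have hap : Cfsg.indFun N θ (x : G) = θ x := indFun_ti_apply N T hTI' hθc hvan x (hTmem x hx) hx1
      simp only [χ, Pi.add_apply, Pi.smul_apply, smul_eq_mul, one', mul_one, hap]
      simp [θ, e, hψ]
    · rw [hχ1]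
      have : Cfsg.indFun N θ g = 0 := by
        rw [indFun_apply]
        simp only [mul_eq_zero]
        right
        refine Finset.sum_eq_zero fun y _ => ?_
        by_cases hy : y⁻¹ * g * y ∈ N
        · rw [extendByZero_mem N θ hy]
          by_cases hyT : y⁻¹ * g * y ∈ T
          · rw [show (⟨y⁻¹ * g * y, hy⟩ : N) = 1 from Subtype.ext (hg y hyT), hθ1]
          · exact hvan _ hyT
        · exact extendByZero_notMem N θ hy
      simp [χ, one', this]
  choose X hXirr hXres hX1 hXK using hext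
  choose Nk hNnormal hNk using fun φ : Cfsg.IrrCharacter H₀ =>
    exists_charKer (Cfsg.Agent.Char.isCharacter_of_irr (hXirr φ))
  let M : Subgroup G := ⨅ φ, Nk φ
  have hMn : M.Normal := Subgroup.normal_iInf_normal hNnormal
  have hkey : ∀ x : N, (x : G) ∈ M → π x = 1 := by
    intro x hx
    by_contra hne
    refine hne (eq_one_of_forall_irr fun φ hφ => ?_)
    have := (hNk ⟨φ, hφ⟩ _).1 (Subgroup.mem_iInf.1 hx ⟨φ, hφ⟩)
    rwa [hXres ⟨φ, hφ⟩ x hne, hX1 ⟨φ, hφ⟩] at this
  have hM : ∀ g : G, g ∈ M ↔ ∀ y : G, y⁻¹ * g * y ∈ T → y⁻¹ * g * y = 1 := by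
    intro g
    constructor
    · intro hg y hy
      have hy' : y⁻¹ * g * y ∈ M := by
        simpa using hMn.conj_mem g hg y⁻¹
      rw [hT] at hy
      rcases hy with e | ⟨x, hx, hne⟩
      · exact e
      · exact absurd (hkey x (hx ▸ hy')) hne
    · intro hg
      exact Subgroup.mem_iInf.2 fun φ => (hNk φ g).2 (hXK φ g hg)
  refine ⟨M, hMn, ?_⟩
  have hdisj : Disjoint M H := by
    rw [Subgroup.disjoint_def]
    intro g hgM hgH
    by_contra hne
    have hgN : g ∈ N := hHN hgH
    have h1 := (hπker _).1 (hkey ⟨g, hgN⟩ hgM)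
    have h2 : (⟨g, hgN⟩ : N) ∈ H₀ := hH₀ ▸ Subgroup.mem_subgroupOf.2 hgH
    exact hne (congrArg Subtype.val (Subgroup.disjoint_def.1 hK.disjoint h1 h2))
  let ψ : N → ℂ := fun x => if π x = 1 then 0 else 1
  have hψc : Cfsg.IsClassFunction N ψ := by
    intro x y
    simp [ψ]
  have hval : ∀ g : G, Cfsg.indFun N ψ g = if g ∈ M then 0 else 1 := by
    intro g
    by_cases hg : g ∈ M
    · rw [if_pos hg, indFun_apply, mul_eq_zero]
      right
      refine Finset.sum_eq_zero fun y _ => ?_
      by_cases hy : y⁻¹ * g * y ∈ N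
      · rw [extendByZero_mem N ψ hy]
        refine if_pos ?_
        by_contra hne
        have e := (hM g).1 hg y (hTmem ⟨_, hy⟩ hne)
        exact hne (by rw [show (⟨y⁻¹ * g * y, hy⟩ : N) = 1 from Subtype.ext e, map_one])
      · exact extendByZero_notMem N ψ hy
    · rw [if_neg hg]
      rw [hM] at hg
      push Not at hg
      obtain ⟨y, hy, hy1⟩ := hg
      rw [hT] at hy
      rcases hy with e | ⟨x, hx, hne⟩
      · exact absurd e hy1
      have hc := indFun_isClassFunction N ψ (y⁻¹ * g * y) y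
      rw [show y * (y⁻¹ * g * y) * y⁻¹ = g by simp [mul_assoc]] at hc
      rw [hc, ← hx, indFun_ti_apply N T hTI' hψc (fun z hz => if_pos (hnoT z hz)) x (hTmem x hne)
        (fun e => hne (by rw [e, map_one]))]
      exact if_neg hne
  have hrec := classInner_indFun_left N ψ (φ := fun _ : G => (1 : ℂ)) (fun _ _ => rfl)
  simp only [Cfsg.classInner, hval, map_one, mul_one] at hrec
  have hs1 : ∑ g : G, (if g ∈ M then (0 : ℂ) else 1) = (Nat.card G : ℂ) - Nat.card M := by
    have : ∀ g : G, (if g ∈ M then (0 : ℂ) else 1) = 1 - if g ∈ M then 1 else 0 := by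
      intro g; split_ifs <;> simp
    simp only [this, Finset.sum_sub_distrib, Finset.sum_const, Finset.card_univ, nsmul_one,
      ← Finset.sum_filter, Nat.card_eq_fintype_card]
    rw [← Fintype.card_subtype]
  have hs2 : ∑ x : N, ψ x = (Nat.card N : ℂ) - Nat.card K := by
    have : ∀ x : N, ψ x = 1 - if x ∈ K then 1 else 0 := by
      intro x; simp only [ψ, hπker]; split_ifs <;> simp
    simp only [this, Finset.sum_sub_distrib, Finset.sum_const, Finset.card_univ, nsmul_one,
      ← Finset.sum_filter, Nat.card_eq_fintype_card]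
    rw [← Fintype.card_subtype]
  rw [hs1, hs2] at hrec
  have hNcard : Nat.card K * Nat.card H = Nat.card N := hcH₀ ▸ hK.card_mul_card
  have hG : (Nat.card G : ℂ) ≠ 0 := natCard_ne_zero
  have hNc : (Nat.card N : ℂ) ≠ 0 := natCard_ne_zero
  have hcard : Nat.card M * Nat.card H = Nat.card G := by
    have hN' : (Nat.card K : ℂ) * Nat.card H = Nat.card N := by exact_mod_cast hNcard
    field_simp at hrec
    have : ((Nat.card M * Nat.card H : ℕ) : ℂ) = Nat.card G := by
      push_cast
      apply mul_right_cancel₀ hNc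
      linear_combination -(Nat.card H : ℂ) * hrec + (Nat.card G : ℂ) * hN'
    exact_mod_cast this
  exact Subgroup.isComplement'_of_card_mul_and_disjoint hcard hdisj

/-- A TI Hall subgroup with a normal complement in its normaliser has one in the group. -/
theorem exists_normal_complement_of_ti {G : Type u} [Group G] [Finite G] (H : Subgroup G)
    (hTI : Cfsg.IsTISubset (H : Set G))
    (hHall : (Nat.card H).Coprime (H.subgroupOf (Subgroup.normalizer (H : Set G))).index)
    (K : Subgroup (Subgroup.normalizer (H : Set G))) [K.Normal]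
    (hK : K.IsComplement' (H.subgroupOf (Subgroup.normalizer (H : Set G)))) :
    ∃ M : Subgroup G, M.Normal ∧ M.IsComplement' H :=
  letI := Fintype.ofFinite G
  exists_normal_complement_of_ti_aux H _ rfl hTI hHall K hK

/-- A non-normal TI Hall subgroup with a normal complement is a Frobenius complement. -/
theorem exists_frobenius_of_ti_complement {G : Type u} [Group G] [Finite G] (H : Subgroup G)
    (hTI : Cfsg.IsTISubset (H : Set G))
    (hHall : (Nat.card H).Coprime (H.subgroupOf (Subgroup.normalizer (H : Set G))).index)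
    (M : Subgroup G) [M.Normal] (hM : M.IsComplement' H) (hnn : ¬ H.Normal) :
    ∃ (F : Type u) (_ : Group F) (_ : Finite F) (C : Subgroup F),
      Cfsg.IsFrobeniusComplement C ∧ Nonempty (H ≃* C) := by
  have hMc : (Nat.card M).Coprime (Nat.card H) := by
    have h := FGSev.hall_of_ti hTI hHall
    rw [hM.index_eq_card] at h
    exact h.symm
  have hMN : ¬ M ≤ Subgroup.normalizer (H : Set G) := by
    intro h
    refine hnn (Subgroup.normalizer_eq_top_iff.1 (top_le_iff.1 ?_))
    intro g _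
    obtain ⟨⟨⟨k, hk⟩, ⟨x, hx⟩⟩, hg⟩ := hM.2 g
    exact (show k * x = g from hg) ▸ Subgroup.mul_mem _ (h hk) (Subgroup.le_normalizer hx)
  have hab := FGSev.abelian_cyclic_of_ti hTI hMc hMN
  haveI : Nontrivial H :=
    (Subgroup.nontrivial_iff_ne_bot H).2 (FGSev.ne_bot_of_not_normal hnn)
  obtain ⟨r, hr, hrne⟩ : ∃ r : ℕ, r.Prime ∧ Cfsg.pCore r H ≠ ⊥ := by
    by_cases hs : Group.IsSolvable H
    · haveI := hs
      exact Cores.exists_pCore_ne_bot
    · exact FGSev.exists_pCore_ne_bot_of_abelian_cyclic hab hs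
  haveI := Fact.mk hr
  obtain ⟨L, hL, hL', C, hC, ⟨e⟩⟩ := FGSev.exists_frobenius_of_ti hTI hMc hMN hrne
  let μ : L ≃* ULift.{u} L := MulEquiv.ulift.symm
  refine ⟨ULift.{u} L, inferInstance, Finite.of_equiv L μ.toEquiv, C.map μ.toMonoidHom, ?_,
    ⟨e.trans (C.equivMapOfInjective μ.toMonoidHom μ.injective)⟩⟩
  refine Frobenius.isFrobeniusComplement_of_ti ?_ ?_ ?_
  · rw [ne_eq, Subgroup.map_eq_bot_iff_of_injective _ μ.injective]; exact hC.1
  · intro h
    apply hC.2.1
    rw [← Subgroup.comap_map_eq_self_of_injective (f := μ.toMonoidHom) μ.injective C, h,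
      Subgroup.comap_top]
  · rintro g hg _ ⟨x, hx, rfl⟩ ⟨y, hy, hy'⟩
    obtain ⟨g, rfl⟩ := μ.surjective g
    change μ y = μ g * μ x * (μ g)⁻¹ at hy'
    rw [← map_inv, ← map_mul, ← map_mul, μ.injective.eq_iff] at hy'
    have hg' : g ∉ C := fun h => hg ⟨g, h, rfl⟩
    rw [Frobenius.ti_of_isFrobeniusComplement hC g hg' x hx (hy' ▸ hy)]
    exact map_one _

end Cfsg.Agent.OddChar43
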